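import Mathlib
import Cfsg.Agent.Lib.Helper14.DG33.Defs

/-!
# DG33 = S3670, package [ARITH14] (and two counting lemmas shared with [ARITH21])
-/

set_option autoImplicit false

namespace Cfsg.Agent.Lib.Helper62.DG33

open Cfsg.Agent.Lib.Helper14.DG33

universe u

/-- A family of naturals on a finset whose squares sum to `1` is the indicator of one point. -/
theorem sq_sum_one {ι : Type u} [DecidableEq ι] (s : Finset ι) (f : ι → ℕ)
    (h : ∑ χ ∈ s, f χ * f χ = 1) :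
    ∃ σ ∈ s, f σ = 1 ∧ ∀ χ ∈ s, χ ≠ σ → f χ = 0 := by
  have hex : ∃ σ ∈ s, f σ ≠ 0 := by
    by_contra hcon
    push Not at hcon
    have : ∑ χ ∈ s, f χ * f χ = 0 := Finset.sum_eq_zero (fun χ hχ => by simp [hcon χ hχ])
    omega
  obtain ⟨σ, hσs, hσ⟩ := hex
  have hle : f σ * f σ ≤ 1 := by
    rw [← h]
    exact Finset.single_le_sum (f := fun χ => f χ * f χ) (fun _ _ => Nat.zero_le _) hσs
  have hσ1 : f σ = 1 := by
    have h1 : 1 ≤ f σ := Nat.one_le_iff_ne_zero.mpr hσ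
    nlinarith
  refine ⟨σ, hσs, hσ1, ?_⟩
  intro χ hχs hχσ
  have hsplit := Finset.add_sum_erase s (fun χ => f χ * f χ) hσs
  rw [h, hσ1] at hsplit
  have hrest : ∑ χ ∈ s.erase σ, f χ * f χ = 0 := by omega
  have hz := (Finset.sum_eq_zero_iff.mp hrest) χ (Finset.mem_erase.mpr ⟨hχσ, hχs⟩)
  exact mul_self_eq_zero.mp hz

/-- A family of naturals on a fintype whose squares sum to `2` is the indicator of two distinct
points. -/
theorem sq_sum_two {ι : Type u} [Fintype ι] [DecidableEq ι] (f : ι → ℕ)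
    (h : ∑ χ, f χ * f χ = 2) :
    ∃ α β, α ≠ β ∧ f α = 1 ∧ f β = 1 ∧ ∀ χ, χ ≠ α → χ ≠ β → f χ = 0 := by
  have hex : ∃ α, f α ≠ 0 := by
    by_contra hcon
    push Not at hcon
    have : ∑ χ, f χ * f χ = 0 := Finset.sum_eq_zero (fun χ _ => by simp [hcon χ])
    omega
  obtain ⟨α, hα⟩ := hex
  have hle : f α * f α ≤ 2 := by
    rw [← h]
    exact Finset.single_le_sum (f := fun χ => f χ * f χ) (fun _ _ => Nat.zero_le _)
      (Finset.mem_univ α)
  have hα1 : f α = 1 := by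
    have h1 : 1 ≤ f α := Nat.one_le_iff_ne_zero.mpr hα
    have h2 : f α < 2 := by
      by_contra h2
      push Not at h2
      nlinarith
    omega
  have hsplit := Finset.add_sum_erase Finset.univ (fun χ => f χ * f χ) (Finset.mem_univ α)
  rw [h, hα1] at hsplit
  have hrest : ∑ χ ∈ Finset.univ.erase α, f χ * f χ = 1 := by omega
  obtain ⟨β, hβs, hβ1, hβ0⟩ := sq_sum_one (Finset.univ.erase α) f hrest
  refine ⟨α, β, (Finset.ne_of_mem_erase hβs).symm, hα1, hβ1, ?_⟩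
  intro χ hχα hχβ
  exact hβ0 χ (Finset.mem_erase.mpr ⟨hχα, Finset.mem_univ χ⟩) hχβ

/-- **[ARITH14]** -/
theorem pkgArith14 : PkgArith14.{u} := by
  intro ι _ d c x m χ₀ H
  classical
  have h11 : ∑ χ, c 1 χ * c 1 χ = 1 := by
    have := H.A2 1 1 (by norm_num) (by norm_num)
    simpa using this
  obtain ⟨σ, -, hσ1, hσ0⟩ := sq_sum_one Finset.univ (c 1) h11
  have h8 := H.A8 1 (by norm_num)
  have hsum : ∑ χ, c 1 χ * d χ = d σ := by
    rw [Finset.sum_eq_single σ]
    · rw [hσ1, one_mul]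
    · intro χ _ hχ
      rw [hσ0 χ (Finset.mem_univ χ) hχ, zero_mul]
    · intro hσ
      exact absurd (Finset.mem_univ σ) hσ
  refine ⟨σ, ?_⟩
  rw [← hsum, h8]
  norm_num

end Cfsg.Agent.Lib.Helper62.DG33
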