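import Mathlib
import Cfsg.Agent.Lib.Helper14.DG33.Defs
import Cfsg.Agent.Lib.Helper62.DG33.Arith14

/-!
# DG33 = S3670, package [ARITH21]
-/

set_option autoImplicit false

namespace Cfsg.Agent.Lib.Helper62.DG33

open Cfsg.Agent.Lib.Helper14.DG33

universe u

/-- The core of [ARITH21], for a pair `α ≠ β` carrying `c 4`, with `x α = 0` and `x β = 1`. -/
theorem arith21_core {ι : Type u} [Fintype ι] [DecidableEq ι] (d : ι → ℕ) (c : ℕ → ι → ℕ)
    (x m : ι → ℕ) (χ₀ : ι) (H : ArithHyp ι d c x m χ₀) (α β : ι) (hαβ : α ≠ β)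
    (hα : c 4 α = 1) (hβ : c 4 β = 1) (h0 : ∀ χ, χ ≠ α → χ ≠ β → c 4 χ = 0)
    (hxα : x α = 0) (hxβ : x β = 1) : 21 ∣ d β := by
  -- sums against `c 4` are the sum of the values at `α` and `β`
  have hsum : ∀ g : ι → ℕ, ∑ χ, c 4 χ * g χ = g α + g β := by
    intro g
    have h1 := Finset.add_sum_erase Finset.univ (fun χ => c 4 χ * g χ) (Finset.mem_univ α)
    have h2 := Finset.add_sum_erase (Finset.univ.erase α) (fun χ => c 4 χ * g χ)
      (Finset.mem_erase.mpr ⟨hαβ.symm, Finset.mem_univ β⟩)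
    have h3 : ∑ χ ∈ (Finset.univ.erase α).erase β, c 4 χ * g χ = 0 := by
      apply Finset.sum_eq_zero
      intro χ hχ
      have hχβ := Finset.ne_of_mem_erase hχ
      have hχα := Finset.ne_of_mem_erase (Finset.mem_of_mem_erase hχ)
      rw [h0 χ hχα hχβ, zero_mul]
    simp only [hα, hβ, one_mul] at h1 h2
    omega
  -- the other multiplicities vanish at `α` and `β`
  have hci : ∀ i, i < 8 → i ≠ 4 → c i α = 0 ∧ c i β = 0 := by
    intro i hi hi4
    have h := H.A2 i 4 hi (by norm_num)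
    have h' : ∑ χ, c i χ * c 4 χ = 0 := by
      rw [h]
      have : ¬ i = 5 * 4 % 8 := by omega
      simp [hi4, this]
    have h'' : ∑ χ, c 4 χ * c i χ = 0 := by
      rw [← h']
      exact Finset.sum_congr rfl (fun χ _ => mul_comm _ _)
    rw [hsum] at h''
    omega
  have hdα : d α = 1 + 6 * m α := by
    rw [H.A1 α, hxα]
    simp only [Finset.sum_range_succ, Finset.sum_range_zero]
    rw [(hci 0 (by norm_num) (by norm_num)).1, (hci 1 (by norm_num) (by norm_num)).1,
      (hci 2 (by norm_num) (by norm_num)).1, (hci 3 (by norm_num) (by norm_num)).1, hα,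
      (hci 5 (by norm_num) (by norm_num)).1, (hci 6 (by norm_num) (by norm_num)).1,
      (hci 7 (by norm_num) (by norm_num)).1]
  have hdβ : d β = 9 + 6 * m β := by
    rw [H.A1 β, hxβ]
    simp only [Finset.sum_range_succ, Finset.sum_range_zero]
    rw [(hci 0 (by norm_num) (by norm_num)).2, (hci 1 (by norm_num) (by norm_num)).2,
      (hci 2 (by norm_num) (by norm_num)).2, (hci 3 (by norm_num) (by norm_num)).2, hβ,
      (hci 5 (by norm_num) (by norm_num)).2, (hci 6 (by norm_num) (by norm_num)).2,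
      (hci 7 (by norm_num) (by norm_num)).2]
  have h28 : d α + d β = 28 := by
    have := H.A8 4 (by norm_num)
    rwa [hsum] at this
  have hm : m α + m β = 3 := by omega
  have hmα : m α = 0 ∨ m α = 1 ∨ m α = 2 ∨ m α = 3 := by omega
  rcases hmα with h | h | h | h
  · -- `d α = 1`: then `α = χ₀`, but `c 4 χ₀ = 0`
    exfalso
    have h1 : d α = 1 := by omega
    have h2 := H.A7u α h1
    have h3 := H.A7.2.2.1 4 (by norm_num) (by norm_num)
    rw [← h2, hα] at h3
    omega
  · -- `d α = 7`, `d β = 21`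
    have : d β = 21 := by omega
    rw [this]
  · -- `d α = 13` does not divide `6048`
    exfalso
    have h1 : d α = 13 := by omega
    have h2 := (H.A6 α).2
    rw [h1] at h2
    omega
  · -- `d α = 19` does not divide `6048`
    exfalso
    have h1 : d α = 19 := by omega
    have h2 := (H.A6 α).2
    rw [h1] at h2
    omega

/-- **[ARITH21]** -/
theorem pkgArith21 : PkgArith21.{u} := by
  intro ι _ d c x m χ₀ H
  classical
  have h44 : ∑ χ, c 4 χ * c 4 χ = 2 := by
    have := H.A2 4 4 (by norm_num) (by norm_num)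
    simpa using this
  obtain ⟨α, β, hαβ, hα, hβ, h0⟩ := sq_sum_two (c 4) h44
  have h3 := H.A3 4 (by norm_num)
  have hx : x α + x β = 1 := by
    have h1 := Finset.add_sum_erase Finset.univ (fun χ => c 4 χ * x χ) (Finset.mem_univ α)
    have h2 := Finset.add_sum_erase (Finset.univ.erase α) (fun χ => c 4 χ * x χ)
      (Finset.mem_erase.mpr ⟨hαβ.symm, Finset.mem_univ β⟩)
    have h4 : ∑ χ ∈ (Finset.univ.erase α).erase β, c 4 χ * x χ = 0 := by
      apply Finset.sum_eq_zero
      intro χ hχ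
      have hχβ := Finset.ne_of_mem_erase hχ
      have hχα := Finset.ne_of_mem_erase (Finset.mem_of_mem_erase hχ)
      rw [h0 χ hχα hχβ, zero_mul]
    simp only [hα, hβ, one_mul] at h1 h2
    omega
  have hcases : (x α = 0 ∧ x β = 1) ∨ (x α = 1 ∧ x β = 0) := by omega
  rcases hcases with ⟨h1, h2⟩ | ⟨h1, h2⟩
  · exact ⟨β, arith21_core d c x m χ₀ H α β hαβ hα hβ h0 h1 h2⟩
  · exact ⟨α, arith21_core d c x m χ₀ H β α hαβ.symm hβ hα
      (fun χ hχβ hχα => h0 χ hχα hχβ) h2 h1⟩

end Cfsg.Agent.Lib.Helper62.DG33
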