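import Mathlib
import Cfsg.Agent.Lib.Helper19.DG33.Model

/-!
# DG33 = S3670, sub-package [RNORM] of [RAW]: `B` normalises `P` and `Z`
-/

set_option autoImplicit false

namespace Cfsg.Agent.Lib.Helper62.DG33

open Matrix Cfsg.Agent.Lib.Helper45 Cfsg.Agent.Lib.Helper86.Un Cfsg.Agent.Lib.Helper86.SU3
  Cfsg.Agent.Lib.Helper14.DG33 Cfsg.Agent.Lib.Helper19.DG33

universe u

/-- diagonal entries of `B * P * C` for upper triangular `B`, `C` with `B * C = 1` and upper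
unitriangular `P` -/
theorem tri_conj_diag {F : Type u} [Field F] (B P C : Matrix (Fin 3) (Fin 3) F)
    (b1 : B 1 0 = 0) (b2 : B 2 0 = 0) (b3 : B 2 1 = 0)
    (c1 : C 1 0 = 0) (c2 : C 2 0 = 0) (c3 : C 2 1 = 0)
    (p1 : P 1 0 = 0) (p2 : P 2 0 = 0) (p3 : P 2 1 = 0)
    (p4 : P 0 0 = 1) (p5 : P 1 1 = 1) (p6 : P 2 2 = 1) (hBC : B * C = 1) :
    (B * P * C) 0 0 = 1 ∧ (B * P * C) 1 1 = 1 ∧ (B * P * C) 2 2 = 1 := by
  have h00 := congrFun (congrFun hBC 0) 0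
  have h11 := congrFun (congrFun hBC 1) 1
  have h22 := congrFun (congrFun hBC 2) 2
  simp only [Matrix.mul_apply, Fin.sum_univ_three, Matrix.one_apply_eq, b1, b2, b3, c1, c2, c3,
    p1, p2, p3, p4, p5, p6, mul_zero, zero_mul, add_zero, zero_add, mul_one] at h00 h11 h22 ⊢
  exact ⟨h00, h11, h22⟩

/-- the entries `(0,1)` and `(1,2)` of `B * Z * C` for upper triangular `B`, `C` with
`B * C = 1` and `Z = 1 + c E₀₂` -/
theorem tri_conj_off {F : Type u} [Field F] (B Z C : Matrix (Fin 3) (Fin 3) F)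
    (b1 : B 1 0 = 0) (b2 : B 2 0 = 0) (b3 : B 2 1 = 0)
    (c1 : C 1 0 = 0) (c2 : C 2 0 = 0) (c3 : C 2 1 = 0)
    (z1 : Z 1 0 = 0) (z2 : Z 2 0 = 0) (z3 : Z 2 1 = 0)
    (z4 : Z 0 0 = 1) (z5 : Z 1 1 = 1) (z6 : Z 2 2 = 1) (z7 : Z 0 1 = 0) (z8 : Z 1 2 = 0)
    (hBC : B * C = 1) :
    (B * Z * C) 0 1 = 0 ∧ (B * Z * C) 1 2 = 0 := by
  have h01 := congrFun (congrFun hBC 0) 1
  have h12 := congrFun (congrFun hBC 1) 2
  have e01 : (1 : Matrix (Fin 3) (Fin 3) F) 0 1 = 0 := Matrix.one_apply_ne (by decide)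
  have e12 : (1 : Matrix (Fin 3) (Fin 3) F) 1 2 = 0 := Matrix.one_apply_ne (by decide)
  rw [e01] at h01
  rw [e12] at h12
  simp only [Matrix.mul_apply, Fin.sum_univ_three, b1, b2, b3, c1, c2, c3,
    z1, z2, z3, z4, z5, z6, z7, z8, mul_zero, zero_mul, add_zero, zero_add, mul_one] at h01 h12 ⊢
  exact ⟨h01, h12⟩

/-- **[RNORM]** -/
theorem pkgRNorm : PkgRNorm.{u} := by
  intro F _ _ hF
  have key1 : ∀ b ∈ Bm hF, ∀ p ∈ Pm hF, b * p * b⁻¹ ∈ Pm hF := by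
    intro b hb p hp
    have hbi := (Bm hF).inv_mem hb
    have hpB : p ∈ Bm hF := hp.1
    refine ⟨(Bm hF).mul_mem ((Bm hF).mul_mem hb hpB) hbi, ?_⟩
    obtain ⟨b1, b2, b3⟩ := hb
    obtain ⟨c1, c2, c3⟩ := hbi
    obtain ⟨⟨p1, p2, p3⟩, p4, p5, p6⟩ := hp
    have hone : mat b * mat b⁻¹ = 1 := by rw [← mat_mul', mul_inv_cancel, mat_one']
    rw [mat_mul', mat_mul']
    exact tri_conj_diag (mat b) (mat p) (mat b⁻¹) b1 b2 b3 c1 c2 c3 p1 p2 p3 p4 p5 p6 hone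
  refine ⟨key1, ?_⟩
  intro b hb z hz
  refine ⟨key1 b hb z hz.1, ?_⟩
  have hbi := (Bm hF).inv_mem hb
  obtain ⟨b1, b2, b3⟩ := hb
  obtain ⟨c1, c2, c3⟩ := hbi
  obtain ⟨⟨⟨z1, z2, z3⟩, z4, z5, z6⟩, z7, z8⟩ := hz
  have hone : mat b * mat b⁻¹ = 1 := by rw [← mat_mul', mul_inv_cancel, mat_one']
  rw [mat_mul', mat_mul']
  exact tri_conj_off (mat b) (mat z) (mat b⁻¹) b1 b2 b3 c1 c2 c3 z1 z2 z3 z4 z5 z6 z7 z8 hone

end Cfsg.Agent.Lib.Helper62.DG33
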