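import Mathlib
import Cfsg.Agent.Lib.Helper19.DG33.Model

/-!
# DG33 = S3670, sub-package [RT] of [RAW]: the action of `t` on `Z` and on `P / Z`
-/

set_option autoImplicit false

namespace Cfsg.Agent.Lib.Helper62.DG33

open Matrix Cfsg.Agent.Lib.Helper45 Cfsg.Agent.Lib.Helper86.Un Cfsg.Agent.Lib.Helper86.SU3
  Cfsg.Agent.Lib.Helper86.SL3 Cfsg.Agent.Lib.Helper14.DG33 Cfsg.Agent.Lib.Helper19.DG33

universe u

theorem D3_eq_diagonal {F : Type u} [Field F] (x y z : F) :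
    D3 x y z = Matrix.diagonal ![x, y, z] := by
  ext i j
  fin_cases i <;> fin_cases j <;> simp [D3]

/-- entries of a product `diag d * X * diag e * X'` -/
theorem diag_conj_apply {F : Type u} [Field F] (d e : Fin 3 → F)
    (X X' : Matrix (Fin 3) (Fin 3) F) (i j : Fin 3) :
    (Matrix.diagonal d * X * Matrix.diagonal e * X') i j
      = d i * X i 0 * e 0 * X' 0 j + d i * X i 1 * e 1 * X' 1 j + d i * X i 2 * e 2 * X' 2 j := by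
  rw [Matrix.mul_apply, Fin.sum_univ_three]
  simp only [Matrix.mul_diagonal, Matrix.diagonal_mul]

/-- `diag d * Z * diag e * Z = 1` for `Z = 1 + c E₀₂` -/
theorem diag_conj_Z {F : Type u} [Field F] (d e : Fin 3 → F) (Z : Matrix (Fin 3) (Fin 3) F)
    (z1 : Z 1 0 = 0) (z2 : Z 2 0 = 0) (z3 : Z 2 1 = 0)
    (z4 : Z 0 0 = 1) (z5 : Z 1 1 = 1) (z6 : Z 2 2 = 1) (z7 : Z 0 1 = 0) (z8 : Z 1 2 = 0)
    (h0 : d 0 * e 0 = 1) (h1 : d 1 * e 1 = 1) (h2 : d 2 * e 2 = 1) (h02 : d 0 * e 2 = -1) :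
    Matrix.diagonal d * Z * Matrix.diagonal e * Z = 1 := by
  have e00 : (1 : Matrix (Fin 3) (Fin 3) F) 0 0 = 1 := Matrix.one_apply_eq 0
  have e11 : (1 : Matrix (Fin 3) (Fin 3) F) 1 1 = 1 := Matrix.one_apply_eq 1
  have e22 : (1 : Matrix (Fin 3) (Fin 3) F) 2 2 = 1 := Matrix.one_apply_eq 2
  have e01 : (1 : Matrix (Fin 3) (Fin 3) F) 0 1 = 0 := Matrix.one_apply_ne (by decide)
  have e02 : (1 : Matrix (Fin 3) (Fin 3) F) 0 2 = 0 := Matrix.one_apply_ne (by decide)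
  have e10 : (1 : Matrix (Fin 3) (Fin 3) F) 1 0 = 0 := Matrix.one_apply_ne (by decide)
  have e12 : (1 : Matrix (Fin 3) (Fin 3) F) 1 2 = 0 := Matrix.one_apply_ne (by decide)
  have e20 : (1 : Matrix (Fin 3) (Fin 3) F) 2 0 = 0 := Matrix.one_apply_ne (by decide)
  have e21 : (1 : Matrix (Fin 3) (Fin 3) F) 2 1 = 0 := Matrix.one_apply_ne (by decide)
  ext i j
  rw [diag_conj_apply]
  fin_cases i <;> fin_cases j
  · show d 0 * Z 0 0 * e 0 * Z 0 0 + d 0 * Z 0 1 * e 1 * Z 1 0 + d 0 * Z 0 2 * e 2 * Z 2 0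
      = (1 : Matrix (Fin 3) (Fin 3) F) 0 0
    rw [e00, z1, z2, z4, z7]; linear_combination h0
  · show d 0 * Z 0 0 * e 0 * Z 0 1 + d 0 * Z 0 1 * e 1 * Z 1 1 + d 0 * Z 0 2 * e 2 * Z 2 1
      = (1 : Matrix (Fin 3) (Fin 3) F) 0 1
    rw [e01, z3, z4, z5, z7]; ring
  · show d 0 * Z 0 0 * e 0 * Z 0 2 + d 0 * Z 0 1 * e 1 * Z 1 2 + d 0 * Z 0 2 * e 2 * Z 2 2
      = (1 : Matrix (Fin 3) (Fin 3) F) 0 2
    rw [e02, z4, z6, z7, z8]; linear_combination (Z 0 2) * h0 + (Z 0 2) * h02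
  · show d 1 * Z 1 0 * e 0 * Z 0 0 + d 1 * Z 1 1 * e 1 * Z 1 0 + d 1 * Z 1 2 * e 2 * Z 2 0
      = (1 : Matrix (Fin 3) (Fin 3) F) 1 0
    rw [e10, z1, z2]; ring
  · show d 1 * Z 1 0 * e 0 * Z 0 1 + d 1 * Z 1 1 * e 1 * Z 1 1 + d 1 * Z 1 2 * e 2 * Z 2 1
      = (1 : Matrix (Fin 3) (Fin 3) F) 1 1
    rw [e11, z1, z3, z5]; linear_combination h1
  · show d 1 * Z 1 0 * e 0 * Z 0 2 + d 1 * Z 1 1 * e 1 * Z 1 2 + d 1 * Z 1 2 * e 2 * Z 2 2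
      = (1 : Matrix (Fin 3) (Fin 3) F) 1 2
    rw [e12, z1, z8]; ring
  · show d 2 * Z 2 0 * e 0 * Z 0 0 + d 2 * Z 2 1 * e 1 * Z 1 0 + d 2 * Z 2 2 * e 2 * Z 2 0
      = (1 : Matrix (Fin 3) (Fin 3) F) 2 0
    rw [e20, z2, z3]; ring
  · show d 2 * Z 2 0 * e 0 * Z 0 1 + d 2 * Z 2 1 * e 1 * Z 1 1 + d 2 * Z 2 2 * e 2 * Z 2 1
      = (1 : Matrix (Fin 3) (Fin 3) F) 2 1
    rw [e21, z2, z3]; ring
  · show d 2 * Z 2 0 * e 0 * Z 0 2 + d 2 * Z 2 1 * e 1 * Z 1 2 + d 2 * Z 2 2 * e 2 * Z 2 2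
      = (1 : Matrix (Fin 3) (Fin 3) F) 2 2
    rw [e22, z2, z3, z6]; linear_combination h2

/-- entries `(0,1)` and `(1,2)` of `diag d * X * diag e * X'` for upper unitriangular `X`, `X'`
with `X * X' = 1` -/
theorem diag_conj_entries {F : Type u} [Field F] (d e : Fin 3 → F)
    (X X' : Matrix (Fin 3) (Fin 3) F)
    (x1 : X 1 0 = 0) (x4 : X 0 0 = 1) (x5 : X 1 1 = 1)
    (y1 : X' 1 0 = 0) (y2 : X' 2 0 = 0) (y3 : X' 2 1 = 0)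
    (y5 : X' 1 1 = 1) (y6 : X' 2 2 = 1) (h : X * X' = 1) :
    (Matrix.diagonal d * X * Matrix.diagonal e * X') 0 1 = d 0 * (e 1 - e 0) * X 0 1 ∧
    (Matrix.diagonal d * X * Matrix.diagonal e * X') 1 2 = d 1 * (e 2 - e 1) * X 1 2 := by
  have h01 := congrFun (congrFun h 0) 1
  have h12 := congrFun (congrFun h 1) 2
  have e01 : (1 : Matrix (Fin 3) (Fin 3) F) 0 1 = 0 := Matrix.one_apply_ne (by decide)
  have e12 : (1 : Matrix (Fin 3) (Fin 3) F) 1 2 = 0 := Matrix.one_apply_ne (by decide)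
  rw [Matrix.mul_apply, Fin.sum_univ_three, e01, x4, y5, y3] at h01
  rw [Matrix.mul_apply, Fin.sum_univ_three, e12, x1, x5, y6] at h12
  constructor
  · rw [diag_conj_apply, x4, y5, y3]
    linear_combination (d 0 * e 0) * h01
  · rw [diag_conj_apply, x1, x5, y6]
    linear_combination (d 1 * e 1) * h12

/-- **[RT]** -/
theorem pkgRT : PkgRT.{u} := by
  intro F _ _ hF ζ hζ
  have hpowT : ∀ k : ℕ, tm hF ζ ^ k = tm hF (ζ ^ k) := fun k =>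
    (map_pow (torU (sig_sig hF)) ζ k).symm
  have hinvT : ∀ s : Fˣ, (tm hF s)⁻¹ = tm hF s⁻¹ := fun s =>
    (map_inv (torU (sig_sig hF)) s).symm
  have hmatT : ∀ s : Fˣ, mat (tm hF s)
      = Matrix.diagonal ![(s : F), (s : F) ^ 3 * (s : F)⁻¹, ((s : F) ^ 3)⁻¹] := by
    intro s
    rw [mat_tm, T3, D3_eq_diagonal]
    rfl
  have ha8 : (ζ : F) ^ 8 = 1 := by
    have h := pow_orderOf_eq_one ζ
    rw [hζ] at h
    have h2 := congrArg (fun u : Fˣ => (u : F)) h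
    simpa using h2
  have hne : ∀ j : ℕ, ¬ 8 ∣ j → (ζ : F) ^ j ≠ 1 := by
    intro j hj h
    apply hj
    rw [← hζ]
    apply orderOf_dvd_of_pow_eq_one
    apply Units.ext
    simpa using h
  have ha4 : (ζ : F) ^ 4 = -1 := by
    have h1 : ((ζ : F) ^ 4 - 1) * ((ζ : F) ^ 4 + 1) = 0 := by linear_combination ha8
    rcases mul_eq_zero.mp h1 with h | h
    · exact absurd (sub_eq_zero.mp h) (hne 4 (by norm_num))
    · exact eq_neg_of_add_eq_zero_left h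
  have ha0 : (ζ : F) ≠ 0 := ζ.ne_zero
  constructor
  · -- `t z t⁻¹ = z⁻¹`
    intro z hz
    obtain ⟨⟨⟨z1, z2, z3⟩, z4, z5, z6⟩, z7, z8⟩ := hz
    apply eq_inv_of_mul_eq_one_left
    apply mat_injective
    rw [mat_mul', mat_mul', mat_mul', mat_one', hinvT, hmatT, hmatT]
    apply diag_conj_Z _ _ _ z1 z2 z3 z4 z5 z6 z7 z8
    · show (ζ : F) * ((ζ⁻¹ : Fˣ) : F) = 1
      rw [Units.val_inv_eq_inv_val]; field_simp
    · show (ζ : F) ^ 3 * (ζ : F)⁻¹ * (((ζ⁻¹ : Fˣ) : F) ^ 3 * (((ζ⁻¹ : Fˣ) : F))⁻¹) = 1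
      rw [Units.val_inv_eq_inv_val]; field_simp
    · show ((ζ : F) ^ 3)⁻¹ * ((((ζ⁻¹ : Fˣ) : F)) ^ 3)⁻¹ = 1
      rw [Units.val_inv_eq_inv_val]; field_simp
    · show (ζ : F) * ((((ζ⁻¹ : Fˣ) : F)) ^ 3)⁻¹ = -1
      rw [Units.val_inv_eq_inv_val]
      field_simp
      linear_combination ha4
  · -- `t^k` acts freely on `P / Z`
    intro k hk0 hk8 p hp hmem
    rw [hpowT, hinvT] at hmem
    obtain ⟨-, m01, m12⟩ := hmem
    have hpi := (Pm hF).inv_mem hp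
    obtain ⟨⟨x1, x2, x3⟩, x4, x5, x6⟩ := hp
    obtain ⟨⟨y1, y2, y3⟩, y4, y5, y6⟩ := hpi
    have hone : mat p * mat p⁻¹ = 1 := by rw [← mat_mul', mul_inv_cancel, mat_one']
    rw [mat_mul', mat_mul', mat_mul', hmatT, hmatT] at m01 m12
    obtain ⟨c01, c12⟩ := diag_conj_entries
      ![((ζ ^ k : Fˣ) : F), ((ζ ^ k : Fˣ) : F) ^ 3 * ((ζ ^ k : Fˣ) : F)⁻¹,
        (((ζ ^ k : Fˣ) : F) ^ 3)⁻¹]
      ![(((ζ ^ k)⁻¹ : Fˣ) : F), (((ζ ^ k)⁻¹ : Fˣ) : F) ^ 3 * (((ζ ^ k)⁻¹ : Fˣ) : F)⁻¹,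
        ((((ζ ^ k)⁻¹ : Fˣ) : F) ^ 3)⁻¹]
      (mat p) (mat p⁻¹) x1 x4 x5 y1 y2 y3 y5 y6 hone
    rw [c01] at m01
    rw [c12] at m12
    set b : F := ((ζ ^ k : Fˣ) : F) with hb
    have hbk : b = (ζ : F) ^ k := by rw [hb]; simp
    have hb0 : b ≠ 0 := (ζ ^ k).ne_zero
    have hbi : (((ζ ^ k)⁻¹ : Fˣ) : F) = b⁻¹ := by rw [Units.val_inv_eq_inv_val]
    rw [hbi] at m01 m12
    have hb1 : b ≠ 1 := by
      rw [hbk]
      exact hne k (by intro h; have := Nat.le_of_dvd hk0 h; omega)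
    have hb5 : b ^ 5 ≠ 1 := by
      rw [hbk, ← pow_mul]
      apply hne
      intro h
      have h8 : 8 ∣ k := (Nat.Coprime.dvd_of_dvd_mul_right (by norm_num : Nat.Coprime 8 5) h)
      have := Nat.le_of_dvd hk0 h8
      omega
    have e01 : mat p 0 1 = 0 := by
      have hc : (![b, b ^ 3 * b⁻¹, (b ^ 3)⁻¹] : Fin 3 → F) 0
          * ((![b⁻¹, b⁻¹ ^ 3 * b⁻¹⁻¹, (b⁻¹ ^ 3)⁻¹] : Fin 3 → F) 1
            - (![b⁻¹, b⁻¹ ^ 3 * b⁻¹⁻¹, (b⁻¹ ^ 3)⁻¹] : Fin 3 → F) 0) = b⁻¹ - 1 := by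
        show b * (b⁻¹ ^ 3 * b⁻¹⁻¹ - b⁻¹) = b⁻¹ - 1
        field_simp
      rw [hc] at m01
      rcases mul_eq_zero.mp m01 with h | h
      · exfalso
        apply hb1
        have : b⁻¹ = 1 := sub_eq_zero.mp h
        rw [inv_eq_one] at this
        exact this
      · exact h
    have e12 : mat p 1 2 = 0 := by
      have hc : (![b, b ^ 3 * b⁻¹, (b ^ 3)⁻¹] : Fin 3 → F) 1
          * ((![b⁻¹, b⁻¹ ^ 3 * b⁻¹⁻¹, (b⁻¹ ^ 3)⁻¹] : Fin 3 → F) 2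
            - (![b⁻¹, b⁻¹ ^ 3 * b⁻¹⁻¹, (b⁻¹ ^ 3)⁻¹] : Fin 3 → F) 1) = b ^ 5 - 1 := by
        show b ^ 3 * b⁻¹ * ((b⁻¹ ^ 3)⁻¹ - b⁻¹ ^ 3 * b⁻¹⁻¹) = b ^ 5 - 1
        field_simp
      rw [hc] at m12
      rcases mul_eq_zero.mp m12 with h | h
      · exact absurd (sub_eq_zero.mp h) hb5
      · exact h
    exact ⟨⟨⟨x1, x2, x3⟩, x4, x5, x6⟩, e01, e12⟩

end Cfsg.Agent.Lib.Helper62.DG33
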