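import Mathlib
import Cfsg.Agent.Lib.Helper14.DG33.Defs

/-!
# DG33 = S3670, package [CARDZ]: the centre of a nonabelian group of order 27 has order 3
-/

set_option autoImplicit false

namespace Cfsg.Agent.Lib.Helper62.DG33

open Cfsg.Agent.Lib.Helper14.DG33

universe u

/-- The centre of a nonabelian group of order `27` has order `3`. -/
theorem card_center_27 (P : Type u) [Group P] [Finite P] (h27 : Nat.card P = 27)
    (hne : Subgroup.center P ≠ ⊤) : Nat.card (Subgroup.center P) = 3 := by
  haveI : Fact (Nat.Prime 3) := ⟨by norm_num⟩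
  have hP : IsPGroup 3 P := IsPGroup.of_card (n := 3) (by rw [h27]; norm_num)
  haveI : Nontrivial P := by
    rw [← Finite.one_lt_card_iff_nontrivial, h27]; norm_num
  have hnt : Nontrivial (Subgroup.center P) := hP.center_nontrivial
  have h1 : 1 < Nat.card (Subgroup.center P) := Finite.one_lt_card_iff_nontrivial.mpr hnt
  have hdvd : Nat.card (Subgroup.center P) ∣ 27 := by
    rw [← h27]; exact Subgroup.card_subgroup_dvd_card _
  have hmul := Subgroup.card_mul_index (Subgroup.center P)
  rw [h27] at hmul
  have hcases : Nat.card (Subgroup.center P) ∈ Nat.divisors 27 := by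
    rw [Nat.mem_divisors]; exact ⟨hdvd, by norm_num⟩
  have hdiv : Nat.divisors 27 = {1, 3, 9, 27} := by decide
  rw [hdiv] at hcases
  simp only [Finset.mem_insert, Finset.mem_singleton] at hcases
  rcases hcases with h | h | h | h
  · omega
  · exact h
  · -- index 3: the quotient is cyclic, so `P` is commutative
    exfalso
    have hidx : (Subgroup.center P).index = 3 := by
      rw [h] at hmul; omega
    have hcq : Nat.card (P ⧸ Subgroup.center P) = 3 := by
      rw [← Subgroup.index_eq_card]; exact hidx
    haveI : IsCyclic (P ⧸ Subgroup.center P) := isCyclic_of_prime_card hcq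
    have hcomm := commutative_of_cyclic_center_quotient (QuotientGroup.mk' (Subgroup.center P))
      (by rw [QuotientGroup.ker_mk'])
    apply hne
    rw [eq_top_iff]
    intro g _
    rw [Subgroup.mem_center_iff]
    intro x
    exact hcomm x g
  · exfalso
    apply hne
    apply Subgroup.eq_top_of_card_eq
    rw [h, h27]

/-- **[CARDZ]** -/
theorem pkgCardZ : PkgCardZ.{u} := by
  intro G _ _ P Z hZP h27 hcent hnc hne
  -- `Z`, viewed inside `P`, is the centre of `P`
  have hZ : Z.subgroupOf P = Subgroup.center P := by
    ext p
    rw [Subgroup.mem_subgroupOf, Subgroup.mem_center_iff]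
    constructor
    · intro hp q
      apply Subtype.ext
      have := hcent (p : G) hp (q : G) q.2
      simpa using this.symm
    · intro hp
      by_contra hpZ
      obtain ⟨q, hq, hpq⟩ := hnc (p : G) p.2 hpZ
      apply hpq
      have := hp ⟨q, hq⟩
      have h2 := congrArg (Subtype.val) this
      simpa using h2.symm
  have hcard : Nat.card Z = Nat.card (Z.subgroupOf P) :=
    (Nat.card_congr (Subgroup.subgroupOfEquivOfLe hZP).toEquiv).symm
  rw [hcard, hZ]
  apply card_center_27 P h27
  intro htop
  obtain ⟨p, hp, hpZ⟩ := hne
  apply hpZ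
  have : (⟨p, hp⟩ : P) ∈ Z.subgroupOf P := by rw [hZ, htop]; trivial
  simpa [Subgroup.mem_subgroupOf] using this

end Cfsg.Agent.Lib.Helper62.DG33
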